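/-! Generated tables for SuzE (Suz). -/

namespace Cfsg.Agent.Lib.Helper29.SuzE

noncomputable def V0 : Nat := 0x6800000000009800000000000800000000003800
noncomputable def V1 : Nat := 0x9800000000003800000000006800000000000008
noncomputable def V2 : Nat := 0xc80000000000a000000000007000000000004010
noncomputable def V3 : Nat := 0x9800000000689800000000386800000000083800000000000800
noncomputable def V4 : Nat := 0xd00000000000a800000000007800000000004818
noncomputable def V5 : Nat := 0x980000000068009800000038006800000008003800000000000800
noncomputable def V6 : Nat := 0xd80000000000b000000000008000000000005020
noncomputable def V7 : Nat := 0x98000000006800009800003800006800000800003800000000000800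
noncomputable def V8 : Nat := 0xe00000000000b800000000008800000000005828
noncomputable def V9 : Nat := 0x9800000000680000009800380000006800080000003800000000000800
noncomputable def V10 : Nat := 0xe80000000000c000000000009000000000006030
noncomputable def V11 : Nat := 0x980000000068000000009838000000006808000000003800000000000800
noncomputable def R0 : Nat := 0x2b00000000002a0000000000570000000000566e
noncomputable def R1 : Nat := 0x2900000000004100000000004000000000006d6c
noncomputable def R2 : Nat := 0x1300000000002700000000003e0000000000546a
noncomputable def R3 : Nat := 0x14000000002811000000003f2500000000553c000000006b5268
noncomputable def R4 : Nat := 0xf00000000002300000000003a00000000005066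
noncomputable def R5 : Nat := 0x100000000024000d0000003b002100000051003800000067004e64
noncomputable def R6 : Nat := 0xb00000000001f00000000003600000000004c62
noncomputable def R7 : Nat := 0xc000000002000000900003700001d00004d00003400006300004a60
noncomputable def R8 : Nat := 0x700000000001b0000000000320000000000485e
noncomputable def R9 : Nat := 0x8000000001c00000005003300000019004900000030005f000000465c
noncomputable def R10 : Nat := 0x300000000001700000000002e0000000000445a
noncomputable def R11 : Nat := 0x4000000001800000000012f000000001545000000002c5b000000004258
noncomputable def R12 : Nat := 0x6f
noncomputable def MG : Nat := 0x989898989868686868680038383838380008080808080000000000000000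
noncomputable def MT : Nat := 0x2060a0e12161a1e2226002d3135393d0043474b4f5300595d6165690000
noncomputable def PAR : Nat := 0x989898989868686868686838383838383808080808080800000000000000
noncomputable def PL : Nat := 0xb090705030b09070503000b09070503010b09070503000b090705030100
noncomputable def FIN : Nat := 0x400000000000300000000000200000000000100
noncomputable def VERT : Nat := 0x9868380800
noncomputable def L0 : Nat := 0x1820081000
noncomputable def L1 : Nat := 0x2010180008
noncomputable def L2 : Nat := 0x2018100800
noncomputable def L3 : Nat := 0x2018100800
noncomputable def L4 : Nat := 0x2018100800
noncomputable def L5 : Nat := 0x2018100800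
noncomputable def L6 : Nat := 0x2018100800
noncomputable def L7 : Nat := 0x2018100800
noncomputable def L8 : Nat := 0x2018100800
noncomputable def L9 : Nat := 0x2018100800
noncomputable def L10 : Nat := 0x2018100800
noncomputable def L11 : Nat := 0x2018100800

end Cfsg.Agent.Lib.Helper29.SuzE
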